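import Cfsg.Agent.ChevalleyStructure.SL2Hom

/-!
# S2539, part 2.4: overgroups of a split torus in a group of rank one

`rank_one`: `φ : SL₂(K) → G`, `T` a subgroup of `G` acting on `φ(up u)`, `φ(lo u)` through all the scalars `c`, `c⁻¹`,
containing `φ(diag(c, c⁻¹))` and normalized by `φ(0 1; -1 0)`.  If `T ≤ F ≤ ⟨T, φ(SL₂(K))⟩`, `|K| ≥ 6` and `F` contains
neither all the `φ(up u)` nor all the `φ(lo u)`, then `F` normalizes `T`.
-/

set_option autoImplicit false

namespace Cfsg.Agent.H194.OT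

open Matrix
open Cfsg.Agent.ChevalleyStructure.SL2Hom (up lo mem_closure_SL2)

variable {K : Type*} [Field K] {G : Type*} [Group G]

local notation "SL2" => Matrix.SpecialLinearGroup (Fin 2)

/-- an element of `SL₂` by its entries -/
def mk2 (a b c d : K) (h : a * d - b * c = 1) : SL2 K := ⟨!![a, b; c, d], by rw [det_fin_two_of]; exact h⟩

theorem ext2 {A B : SL2 K} (h00 : A.1 0 0 = B.1 0 0) (h01 : A.1 0 1 = B.1 0 1) (h10 : A.1 1 0 = B.1 1 0)
    (h11 : A.1 1 1 = B.1 1 1) : A = B := by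
  apply Subtype.ext
  ext i j
  fin_cases i <;> fin_cases j
  · exact h00
  · exact h01
  · exact h10
  · exact h11

theorem mul2 (A B : SL2 K) (i j : Fin 2) : (A * B).1 i j = A.1 i 0 * B.1 0 j + A.1 i 1 * B.1 1 j := by
  show (A.1 * B.1) i j = _
  rw [Matrix.mul_apply, Fin.sum_univ_two]

theorem det2 (A : SL2 K) : A.1 0 0 * A.1 1 1 - A.1 0 1 * A.1 1 0 = 1 := by
  rw [← det_fin_two]
  exact A.2

/-- the diagonal element of `SL₂` -/
def hd (c : Kˣ) : SL2 K := mk2 (c : K) 0 0 ((c⁻¹ : Kˣ) : K) (by simp)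

/-- the antidiagonal element of `SL₂` -/
def wd : SL2 K := mk2 0 1 (-1) 0 (by simp)

/-- `t` acts on the root elements by the scalar `c` -/
def Act (φ : SL2 K →* G) (t : G) (c : Kˣ) : Prop :=
  (∀ u : K, t * φ (up u) * t⁻¹ = φ (up (c * u))) ∧ ∀ u : K, t * φ (lo u) * t⁻¹ = φ (lo (((c⁻¹ : Kˣ) : K) * u))

variable {φ : SL2 K →* G}

theorem Act.mul {t t' : G} {c c' : Kˣ} (h : Act φ t c) (h' : Act φ t' c') : Act φ (t * t') (c * c') := by
  constructor
  · intro u
    have : t * t' * φ (up u) * (t * t')⁻¹ = t * (t' * φ (up u) * t'⁻¹) * t⁻¹ := by group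
    rw [this, h'.1, h.1, Units.val_mul, mul_assoc]
  · intro u
    have : t * t' * φ (lo u) * (t * t')⁻¹ = t * (t' * φ (lo u) * t'⁻¹) * t⁻¹ := by group
    rw [this, h'.2, h.2, mul_inv, Units.val_mul, mul_assoc]

theorem cancel (c : Kˣ) : (c : K) * ((c⁻¹ : Kˣ) : K) = 1 := Units.mul_inv c

/-- conjugation by a diagonal matrix -/
def cj (c : Kˣ) : SL2 K →* SL2 K where
  toFun A := mk2 (A.1 0 0) ((c : K) * A.1 0 1) (((c⁻¹ : Kˣ) : K) * A.1 1 0) (A.1 1 1) (by
    linear_combination det2 A - (A.1 0 1 * A.1 1 0) * cancel c)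
  map_one' := ext2 rfl (by show (c : K) * 0 = 0; ring) (by show ((c⁻¹ : Kˣ) : K) * 0 = 0; ring) rfl
  map_mul' A B := by
    apply ext2
    · show (A * B).1 0 0 = _
      rw [mul2, mul2]
      show _ = A.1 0 0 * B.1 0 0 + ((c : K) * A.1 0 1) * (((c⁻¹ : Kˣ) : K) * B.1 1 0)
      linear_combination -(A.1 0 1 * B.1 1 0) * cancel c
    · show (c : K) * (A * B).1 0 1 = _
      rw [mul2, mul2]
      show _ = A.1 0 0 * ((c : K) * B.1 0 1) + ((c : K) * A.1 0 1) * B.1 1 1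
      ring
    · show ((c⁻¹ : Kˣ) : K) * (A * B).1 1 0 = _
      rw [mul2, mul2]
      show _ = (((c⁻¹ : Kˣ) : K) * A.1 1 0) * B.1 0 0 + A.1 1 1 * (((c⁻¹ : Kˣ) : K) * B.1 1 0)
      ring
    · show (A * B).1 1 1 = _
      rw [mul2, mul2]
      show _ = (((c⁻¹ : Kˣ) : K) * A.1 1 0) * ((c : K) * B.1 0 1) + A.1 1 1 * B.1 1 1
      linear_combination -(A.1 1 0 * B.1 0 1) * cancel c

theorem Act.conj {t : G} {c : Kˣ} (h : Act φ t c) (A : SL2 K) : t * φ A * t⁻¹ = φ (cj c A) := by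
  have hA := mem_closure_SL2 A
  induction hA using Subgroup.closure_induction with
  | mem x hx =>
    rcases hx with ⟨u, rfl⟩ | ⟨u, rfl⟩
    · rw [h.1]
      congr 1
      exact ext2 rfl rfl (by show (0 : K) = ((c⁻¹ : Kˣ) : K) * 0; ring) rfl
    · rw [h.2]
      congr 1
      exact ext2 rfl (by show (0 : K) = (c : K) * 0; ring) rfl rfl
  | one => rw [map_one, map_one, map_one, mul_one, mul_inv_cancel]
  | mul x y _ _ hx hy =>
    rw [map_mul, map_mul, map_mul, ← hx, ← hy]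
    group
  | inv x _ hx =>
    rw [map_inv, map_inv, map_inv, ← hx]
    group

/-- `g = φ(A) t` and `(a b; c d) = A diag(s, 1)` -/
def Rel (φ : SL2 K →* G) (T : Subgroup G) (g : G) (a b c d : K) : Prop :=
  ∃ (A : SL2 K) (t : G) (s : Kˣ), t ∈ T ∧ Act φ t s ∧ g = φ A * t ∧ a = A.1 0 0 * s ∧ b = A.1 0 1 ∧
    c = A.1 1 0 * s ∧ d = A.1 1 1

variable {T F : Subgroup G}

theorem Rel.mul {g g' : G} {a b c d a' b' c' d' : K} (h : Rel φ T g a b c d) (h' : Rel φ T g' a' b' c' d') :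
    Rel φ T (g * g') (a * a' + b * c') (a * b' + b * d') (c * a' + d * c') (c * b' + d * d') := by
  obtain ⟨A, t, s, ht, hs, rfl, rfl, rfl, rfl, rfl⟩ := h
  obtain ⟨A', t', s', ht', hs', rfl, rfl, rfl, rfl, rfl⟩ := h'
  refine ⟨A * cj s A', t * t', s * s', T.mul_mem ht ht', hs.mul hs', ?_, ?_, ?_, ?_, ?_⟩
  · rw [map_mul, ← hs.conj]
    group
  · rw [mul2, Units.val_mul]
    show _ = (A.1 0 0 * A'.1 0 0 + A.1 0 1 * (((s⁻¹ : Kˣ) : K) * A'.1 1 0)) * (s * s')
    linear_combination -(A.1 0 1 * A'.1 1 0 * s') * cancel s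
  · rw [mul2]
    show _ = A.1 0 0 * ((s : K) * A'.1 0 1) + A.1 0 1 * A'.1 1 1
    ring
  · rw [mul2, Units.val_mul]
    show _ = (A.1 1 0 * A'.1 0 0 + A.1 1 1 * (((s⁻¹ : Kˣ) : K) * A'.1 1 0)) * (s * s')
    linear_combination -(A.1 1 1 * A'.1 1 0 * s') * cancel s
  · rw [mul2]
    show _ = A.1 1 0 * ((s : K) * A'.1 0 1) + A.1 1 1 * A'.1 1 1
    ring

theorem Rel.torus {t : G} {s : Kˣ} (ht : t ∈ T) (hs : Act φ t s) : Rel φ T t s 0 0 1 :=
  ⟨1, t, s, ht, hs, by rw [map_one, one_mul], by simp, by simp, by simp, by simp⟩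

theorem Rel.det {g : G} {a b c d : K} (h : Rel φ T g a b c d) : a * d - b * c ≠ 0 := by
  obtain ⟨A, t, s, ht, hs, rfl, rfl, rfl, rfl, rfl⟩ := h
  have h1 : A.1 0 0 * s * A.1 1 1 - A.1 0 1 * (A.1 1 0 * s) = s := by linear_combination (s : K) * det2 A
  rw [h1]
  exact s.ne_zero

/-- the hypotheses of the rank one case -/
structure Setup (φ : SL2 K →* G) (T F : Subgroup G) : Prop where
  act : ∀ t ∈ T, ∃ c, Act φ t c
  surj : ∀ c : Kˣ, ∃ t ∈ T, Act φ t c
  hdm : ∀ c, φ (hd c) ∈ T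
  wdn : φ wd ∈ Subgroup.normalizer (T : Set G)
  le : T ≤ F
  sub : F ≤ T ⊔ φ.range
  nup : ¬ ∀ u, φ (up u) ∈ F
  nlo : ¬ ∀ u, φ (lo u) ∈ F

variable (S : Setup φ T F)

include S

theorem Setup.rel {g : G} (hg : g ∈ F) : ∃ a b c d, Rel φ T g a b c d := by
  have key : ∀ g ∈ T ⊔ φ.range, ∃ A : SL2 K, ∃ t ∈ T, g = φ A * t := by
    intro g hg
    let H : Subgroup G :=
      { carrier := {g | ∃ A : SL2 K, ∃ t ∈ T, g = φ A * t}
        one_mem' := ⟨1, 1, T.one_mem, by rw [map_one, one_mul]⟩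
        mul_mem' := by
          rintro _ _ ⟨A, t, ht, rfl⟩ ⟨A', t', ht', rfl⟩
          obtain ⟨s, hs⟩ := S.act t ht
          refine ⟨A * cj s A', t * t', T.mul_mem ht ht', ?_⟩
          rw [map_mul, ← hs.conj]
          group
        inv_mem' := by
          rintro _ ⟨A, t, ht, rfl⟩
          obtain ⟨s, hs⟩ := S.act t⁻¹ (T.inv_mem ht)
          refine ⟨cj s A⁻¹, t⁻¹, T.inv_mem ht, ?_⟩
          rw [← hs.conj, map_inv]
          group }
    have hle : T ⊔ φ.range ≤ H := by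
      refine sup_le ?_ ?_
      · intro t ht
        exact ⟨1, t, ht, by rw [map_one, one_mul]⟩
      · rintro _ ⟨A, rfl⟩
        exact ⟨A, 1, T.one_mem, by rw [mul_one]⟩
    exact hle hg
  obtain ⟨A, t, ht, rfl⟩ := key g (S.sub hg)
  obtain ⟨s, hs⟩ := S.act t ht
  exact ⟨_, _, _, _, A, t, s, ht, hs, rfl, rfl, rfl, rfl, rfl⟩

theorem Setup.claim1 {g : G} (hg : g ∈ F) {a b c d : K} (h : Rel φ T g a b c d) (hc : c = 0) : b = 0 := by
  obtain ⟨A, t, s, ht, hs, rfl, rfl, rfl, rfl, rfl⟩ := h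
  have h10 : A.1 1 0 = 0 := (mul_eq_zero.1 hc).resolve_right s.ne_zero
  have hdet := det2 A
  rw [h10, mul_zero, sub_zero] at hdet
  have hα : A.1 0 0 ≠ 0 := left_ne_zero_of_mul_eq_one hdet
  by_contra hb
  apply S.nup
  set α : Kˣ := Units.mk0 _ hα with hαd
  have hαi : ((α⁻¹ : Kˣ) : K) = A.1 1 1 := by
    rw [Units.val_inv_eq_inv_val]
    exact inv_eq_of_mul_eq_one_right hdet
  have hA : A = up (A.1 0 1 * A.1 0 0) * hd α := by
    apply ext2
    · rw [mul2]
      show A.1 0 0 = 1 * A.1 0 0 + (A.1 0 1 * A.1 0 0) * 0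
      ring
    · rw [mul2]
      show A.1 0 1 = 1 * 0 + (A.1 0 1 * A.1 0 0) * ((α⁻¹ : Kˣ) : K)
      rw [hαi]
      linear_combination -(A.1 0 1) * hdet
    · rw [mul2, h10]
      show (0 : K) = 0 * A.1 0 0 + 1 * 0
      ring
    · rw [mul2]
      show A.1 1 1 = 0 * 0 + 1 * ((α⁻¹ : Kˣ) : K)
      rw [hαi]
      ring
  have hmem : φ (up (A.1 0 1 * A.1 0 0)) ∈ F := by
    have h1 : φ (up (A.1 0 1 * A.1 0 0)) = (φ A * t) * t⁻¹ * (φ (hd α))⁻¹ := by
      rw [← map_inv, mul_assoc (φ A), mul_inv_cancel, mul_one, ← map_mul]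
      conv_rhs => rw [hA]
      rw [mul_inv_cancel_right]
    rw [h1]
    exact F.mul_mem (F.mul_mem hg (F.inv_mem (S.le ht))) (F.inv_mem (S.le (S.hdm α)))
  have hw : A.1 0 1 * A.1 0 0 ≠ 0 := mul_ne_zero hb hα
  intro u
  by_cases hu : u = 0
  · subst hu
    have : (up (0 : K)) = 1 := ext2 rfl rfl rfl rfl
    rw [this, map_one]
    exact F.one_mem
  · obtain ⟨t', ht', hs'⟩ := S.surj (Units.mk0 _ hu * (Units.mk0 _ hw)⁻¹)
    have h2 := hs'.1 (A.1 0 1 * A.1 0 0)
    have h3 : ((Units.mk0 u hu * (Units.mk0 _ hw)⁻¹ : Kˣ) : K) * (A.1 0 1 * A.1 0 0) = u := by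
      rw [Units.val_mul, Units.val_inv_eq_inv_val]
      show u * (A.1 0 1 * A.1 0 0)⁻¹ * (A.1 0 1 * A.1 0 0) = u
      rw [mul_assoc, inv_mul_cancel₀ hw, mul_one]
    rw [h3] at h2
    rw [← h2]
    exact F.mul_mem (F.mul_mem (S.le ht') hmem) (F.inv_mem (S.le ht'))

theorem Setup.claim2 {g : G} (hg : g ∈ F) {a b c d : K} (h : Rel φ T g a b c d) (hb : b = 0) : c = 0 := by
  obtain ⟨A, t, s, ht, hs, rfl, rfl, rfl, rfl, rfl⟩ := h
  have hdet := det2 A
  rw [hb, zero_mul, sub_zero] at hdet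
  have hα : A.1 0 0 ≠ 0 := left_ne_zero_of_mul_eq_one hdet
  have hδ : A.1 1 1 ≠ 0 := right_ne_zero_of_mul_eq_one hdet
  by_contra hc
  have hc' : A.1 1 0 ≠ 0 := left_ne_zero_of_mul hc
  apply S.nlo
  set α : Kˣ := Units.mk0 _ hα with hαd
  have hαi : ((α⁻¹ : Kˣ) : K) = A.1 1 1 := by
    rw [Units.val_inv_eq_inv_val]
    exact inv_eq_of_mul_eq_one_right hdet
  have hA : A = lo (A.1 1 0 * A.1 1 1) * hd α := by
    apply ext2
    · rw [mul2]
      show A.1 0 0 = 1 * A.1 0 0 + 0 * 0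
      ring
    · rw [mul2, hb]
      show (0 : K) = 1 * 0 + 0 * ((α⁻¹ : Kˣ) : K)
      ring
    · rw [mul2]
      show A.1 1 0 = (A.1 1 0 * A.1 1 1) * A.1 0 0 + 1 * 0
      linear_combination -(A.1 1 0) * hdet
    · rw [mul2]
      show A.1 1 1 = (A.1 1 0 * A.1 1 1) * 0 + 1 * ((α⁻¹ : Kˣ) : K)
      rw [hαi]
      ring
  have hmem : φ (lo (A.1 1 0 * A.1 1 1)) ∈ F := by
    have h1 : φ (lo (A.1 1 0 * A.1 1 1)) = (φ A * t) * t⁻¹ * (φ (hd α))⁻¹ := by
      rw [← map_inv, mul_assoc (φ A), mul_inv_cancel, mul_one, ← map_mul]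
      conv_rhs => rw [hA]
      rw [mul_inv_cancel_right]
    rw [h1]
    exact F.mul_mem (F.mul_mem hg (F.inv_mem (S.le ht))) (F.inv_mem (S.le (S.hdm α)))
  have hw : A.1 1 0 * A.1 1 1 ≠ 0 := mul_ne_zero hc' hδ
  intro u
  by_cases hu : u = 0
  · subst hu
    have : (lo (0 : K)) = 1 := ext2 rfl rfl rfl rfl
    rw [this, map_one]
    exact F.one_mem
  · obtain ⟨t', ht', hs'⟩ := S.surj (Units.mk0 _ hw * (Units.mk0 _ hu)⁻¹)
    have h2 := hs'.2 (A.1 1 0 * A.1 1 1)
    have h3 : (((Units.mk0 _ hw * (Units.mk0 u hu)⁻¹)⁻¹ : Kˣ) : K) * (A.1 1 0 * A.1 1 1) = u := by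
      rw [mul_inv, inv_inv, Units.val_mul, Units.val_inv_eq_inv_val]
      show (A.1 1 0 * A.1 1 1)⁻¹ * u * (A.1 1 0 * A.1 1 1) = u
      field_simp
    rw [h3] at h2
    rw [← h2]
    exact F.mul_mem (F.mul_mem (S.le ht') hmem) (F.inv_mem (S.le ht'))

theorem Setup.two_sided {g : G} (hg : g ∈ F) {a b c d : K} (h : Rel φ T g a b c d) (s : Kˣ) :
    ∃ g' ∈ F, Rel φ T g' (a * a * s + b * c) (a * b * s + b * d) (a * c * s + c * d) (b * c * s + d * d) := by
  obtain ⟨t, ht, hs⟩ := S.surj s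
  refine ⟨g * t * g, F.mul_mem (F.mul_mem hg (S.le ht)) hg, ?_⟩
  have h1 := (h.mul (Rel.torus ht hs)).mul h
  convert h1 using 1 <;> ring

theorem Setup.three {g g' : G} (hg : g ∈ F) (hg' : g' ∈ F) {a b c d a' b' c' d' : K} (h : Rel φ T g a b c d)
    (h' : Rel φ T g' a' b' c' d') (s : Kˣ) :
    ∃ g'' ∈ F, Rel φ T g'' (a * a' * s + b * c') (a * b' * s + b * d') (c * a' * s + d * c') (c * b' * s + d * d') := by
  obtain ⟨t, ht, hs⟩ := S.surj s
  refine ⟨g * t * g', F.mul_mem (F.mul_mem hg (S.le ht)) hg', ?_⟩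
  have h1 := (h.mul (Rel.torus ht hs)).mul h'
  convert h1 using 1 <;> ring

theorem Setup.claim3 {x : Kˣ} (hx : x ≠ 1) {g : G} (hg : g ∈ F) {a b c d : K} (h : Rel φ T g a b c d) (ha : a = 0) :
    d = 0 := by
  by_contra hd
  subst ha
  have hdet := h.det
  rw [zero_mul, zero_sub, neg_ne_zero] at hdet
  have hb : b ≠ 0 := left_ne_zero_of_mul hdet
  have hc : c ≠ 0 := right_ne_zero_of_mul hdet
  have hs0 : -(d * d) / (b * c) ≠ 0 := div_ne_zero (neg_ne_zero.2 (mul_ne_zero hd hd)) hdet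
  obtain ⟨g', hg', h'⟩ := S.three hg hg h h (Units.mk0 _ hs0)
  have e : c * b * ((Units.mk0 _ hs0 : Kˣ) : K) + d * d = 0 := by
    show c * b * (-(d * d) / (b * c)) + d * d = 0
    field_simp
    ring
  rw [e] at h'
  have key : ∀ s : Kˣ, b * c * s + d * d = 0 := by
    intro s
    obtain ⟨g'', hg'', h''⟩ := S.three hg' hg h' h s
    have h1 := S.claim1 hg'' h'' (by ring)
    have h2 : b * (b * c * s + d * d) = 0 := by linear_combination h1
    exact (mul_eq_zero.1 h2).resolve_left hb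
  have h3 := key 1
  have h4 := key x
  have h5 : b * c * ((x : K) - 1) = 0 := by
    rw [Units.val_one] at h3
    linear_combination h4 - h3
  apply hx
  have h6 := (mul_eq_zero.1 h5).resolve_left hdet
  exact Units.ext (sub_eq_zero.1 h6)

theorem Setup.claim4 {x : Kˣ} (hx : x ≠ 1) {g : G} (hg : g ∈ F) {a b c d : K} (h : Rel φ T g a b c d) (hd : d = 0) :
    a = 0 := by
  by_contra ha
  subst hd
  have hdet := h.det
  rw [mul_zero, zero_sub, neg_ne_zero] at hdet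
  have hb : b ≠ 0 := left_ne_zero_of_mul hdet
  have hc : c ≠ 0 := right_ne_zero_of_mul hdet
  have hs0 : -(b * c) / (a * a) ≠ 0 := div_ne_zero (neg_ne_zero.2 hdet) (mul_ne_zero ha ha)
  have key : ∀ s : Kˣ, a * a * s + b * c = 0 := by
    intro s
    obtain ⟨g', hg', h'⟩ := S.three hg hg h h s
    obtain ⟨g'', hg'', h''⟩ := S.three hg' hg h' h (Units.mk0 _ hs0)
    have h1 := S.claim1 hg'' h'' (by
      show (c * a * s + 0 * c) * a * (-(b * c) / (a * a)) + (c * b * s + 0 * 0) * c = 0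
      field_simp
      ring)
    have h2 : (b * (-(b * c) / (a * a))) * (a * a * s + b * c) = 0 := by
      have h3 : (a * a * s + b * c) * b * (-(b * c) / (a * a)) + (a * b * s + b * 0) * 0 = 0 := h1
      linear_combination h3
    exact (mul_eq_zero.1 h2).resolve_left (mul_ne_zero hb hs0)
  have h3 := key 1
  have h4 := key x
  have h5 : a * a * ((x : K) - 1) = 0 := by
    rw [Units.val_one] at h3
    linear_combination h4 - h3
  apply hx
  have h6 := (mul_eq_zero.1 h5).resolve_left (mul_ne_zero ha ha)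
  exact Units.ext (sub_eq_zero.1 h6)

theorem Setup.claim5 {g : G} {a b c d : K} (h : Rel φ T g a b c d) (hb : b = 0) (hc : c = 0) : g ∈ T := by
  obtain ⟨A, t, s, ht, hs, rfl, rfl, rfl, rfl, rfl⟩ := h
  have h10 : A.1 1 0 = 0 := (mul_eq_zero.1 hc).resolve_right s.ne_zero
  have hdet := det2 A
  rw [h10, mul_zero, sub_zero] at hdet
  have hα : A.1 0 0 ≠ 0 := left_ne_zero_of_mul_eq_one hdet
  have hA : A = hd (Units.mk0 _ hα) := by
    apply ext2
    · rfl
    · exact hb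
    · exact h10
    · show A.1 1 1 = (((Units.mk0 _ hα)⁻¹ : Kˣ) : K)
      rw [Units.val_inv_eq_inv_val]
      exact (inv_eq_of_mul_eq_one_right hdet).symm
  rw [hA]
  exact T.mul_mem (S.hdm _) ht

theorem Setup.claim6 {g : G} {a b c d : K} (h : Rel φ T g a b c d) (ha : a = 0) (hd0 : d = 0) :
    g ∈ Subgroup.normalizer (T : Set G) := by
  obtain ⟨A, t, s, ht, hs, rfl, rfl, rfl, rfl, rfl⟩ := h
  have h00 : A.1 0 0 = 0 := (mul_eq_zero.1 ha).resolve_right s.ne_zero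
  have hdet := det2 A
  rw [h00, zero_mul, zero_sub] at hdet
  have hβ : A.1 0 1 ≠ 0 := by
    intro h
    rw [h] at hdet
    simp at hdet
  have hA : A = hd (Units.mk0 _ hβ) * wd := by
    apply ext2
    · rw [mul2, h00]
      show (0 : K) = A.1 0 1 * 0 + 0 * -1
      ring
    · rw [mul2]
      show A.1 0 1 = A.1 0 1 * 1 + 0 * 0
      ring
    · rw [mul2]
      show A.1 1 0 = 0 * 0 + (((Units.mk0 _ hβ)⁻¹ : Kˣ) : K) * -1
      rw [Units.val_inv_eq_inv_val]
      show A.1 1 0 = 0 * 0 + (A.1 0 1)⁻¹ * -1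
      field_simp
      linear_combination -hdet
    · rw [mul2, hd0]
      show (0 : K) = 0 * 1 + (((Units.mk0 _ hβ)⁻¹ : Kˣ) : K) * 0
      ring
  have hT : T ≤ Subgroup.normalizer (T : Set G) := Subgroup.le_normalizer
  rw [hA, map_mul]
  exact mul_mem (mul_mem (hT (S.hdm _)) S.wdn) (hT ht)

/-- **S2539, part 2.4.** -/
theorem Setup.le_normalizer [Fintype K] (hK : 6 ≤ Fintype.card K) : F ≤ Subgroup.normalizer (T : Set G) := by
  classical
  obtain ⟨x, hx⟩ := IsCyclic.exists_generator (α := Kˣ)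
  have hcard : Fintype.card Kˣ = Fintype.card K - 1 := Fintype.card_units K
  have hxo : orderOf x = Fintype.card K - 1 := by
    rw [← hcard, ← Nat.card_eq_fintype_card]
    exact orderOf_eq_card_of_forall_mem_zpowers hx
  have hx1 : x ≠ 1 := by
    rintro rfl
    rw [orderOf_one] at hxo
    omega
  have hT : T ≤ Subgroup.normalizer (T : Set G) := Subgroup.le_normalizer
  have hnz : ∀ {g : G}, g ∈ F → g ∉ Subgroup.normalizer (T : Set G) → ∀ {a b c d : K}, Rel φ T g a b c d →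
      a ≠ 0 ∧ b ≠ 0 ∧ c ≠ 0 ∧ d ≠ 0 := by
    intro g hg hgN a b c d h
    refine ⟨fun h0 => ?_, fun h0 => ?_, fun h0 => ?_, fun h0 => ?_⟩
    · exact hgN (S.claim6 h h0 (S.claim3 hx1 hg h h0))
    · exact hgN (hT (S.claim5 h h0 (S.claim2 hg h h0)))
    · exact hgN (hT (S.claim5 h (S.claim1 hg h h0) h0))
    · exact hgN (S.claim6 h (S.claim4 hx1 hg h h0) h0)
  have had : ∀ {g : G}, g ∈ F → ∀ {a b c d : K}, Rel φ T g a b c d → a ≠ 0 → b ≠ 0 → c ≠ 0 → d ≠ 0 →
      a * d + b * c = 0 := by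
    intro g hg a b c d h ha hb hc hd
    have hs0 : -(b * c) / (a * a) ≠ 0 := div_ne_zero (neg_ne_zero.2 (mul_ne_zero hb hc)) (mul_ne_zero ha ha)
    obtain ⟨g', hg', h'⟩ := S.three hg hg h h (Units.mk0 _ hs0)
    have h1 := S.claim3 hx1 hg' h' (by
      show a * a * (-(b * c) / (a * a)) + b * c = 0
      field_simp
      ring)
    have h2 : c * b * (-(b * c) / (a * a)) + d * d = 0 := h1
    have h3 : (a * d - b * c) * (a * d + b * c) = 0 := by
      field_simp at h2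
      linear_combination h2
    exact (mul_eq_zero.1 h3).resolve_left h.det
  intro g hg
  by_contra hgN
  obtain ⟨a, b, c, d, h⟩ := S.rel hg
  obtain ⟨ha, hb, hc, hd⟩ := hnz hg hgN h
  have h0 := had hg h ha hb hc hd
  have key : ∀ s : Kˣ, (a * s) ^ 4 = d ^ 4 := by
    intro s
    obtain ⟨g', hg', h'⟩ := S.three hg hg h h s
    by_cases h1 : a * a * s + b * c = 0
    · have h2 : a * (a * s - d) = 0 := by linear_combination h1 - h0
      have h3 := (mul_eq_zero.1 h2).resolve_left ha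
      have h4 : a * s = d := by linear_combination h3
      rw [h4]
    by_cases h5 : a * b * s + b * d = 0
    · have h2 : b * (a * s + d) = 0 := by linear_combination h5
      have h3 := (mul_eq_zero.1 h2).resolve_left hb
      have h4 : a * s = -d := by linear_combination h3
      rw [h4]
      ring
    by_cases h6 : c * a * s + d * c = 0
    · have h2 : c * (a * s + d) = 0 := by linear_combination h6
      have h3 := (mul_eq_zero.1 h2).resolve_left hc
      have h4 : a * s = -d := by linear_combination h3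
      rw [h4]
      ring
    by_cases h7 : c * b * s + d * d = 0
    · have h2 : d * (a * s - d) = 0 := by linear_combination -h7 + (s : K) * h0
      have h3 := (mul_eq_zero.1 h2).resolve_left hd
      have h4 : a * s = d := by linear_combination h3
      rw [h4]
    have h8 := had hg' h' h1 h5 h6 h7
    have h9 : (2 * (a * d)) * ((a * s) ^ 2 + d ^ 2) = 0 := by
      linear_combination -h8 + ((a * s - d) ^ 2 + (a * s + d) ^ 2 + (a * d + b * c) * s) * h0
    have h10 : (2 : K) ≠ 0 := by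
      intro h2
      apply h.det
      linear_combination h0 - (b * c) * h2
    have h11 := (mul_eq_zero.1 h9).resolve_left (mul_ne_zero h10 (mul_ne_zero ha hd))
    linear_combination ((a * s) ^ 2 - d ^ 2) * h11
  have h1 := key 1
  have h2 := key x
  rw [Units.val_one, mul_one] at h1
  rw [mul_pow, h1] at h2
  have h3 : (x : K) ^ 4 = 1 := by
    have h4 : d ^ 4 * ((x : K) ^ 4 - 1) = 0 := by linear_combination h2
    have h5 := (mul_eq_zero.1 h4).resolve_left (pow_ne_zero 4 hd)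
    exact sub_eq_zero.1 h5
  have h4 : x ^ 4 = 1 := Units.ext (by rw [Units.val_pow_eq_pow_val]; exact h3)
  have h5 := Nat.le_of_dvd (by norm_num) (orderOf_dvd_of_pow_eq_one h4)
  rw [hxo] at h5
  omega

end Cfsg.Agent.H194.OT
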