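import Cfsg.Agent.H412.OT.Defs
import Cfsg.Agent.H194.OT.RankOne
import Cfsg.Agent.ChevalleyStructure.MonomialNormal
import Cfsg.Agent.ChevalleyStructure.SharpSign
import Cfsg.Agent.ChevalleyStructure.NBlock

/-!
# S2539, part 2.4: overgroups of `T` in `⟨T, X_r, X_{-r}⟩`
-/

set_option autoImplicit false

namespace Cfsg.Agent.H194.OT

open Cfsg Cfsg.Lie Cfsg.Lie.ChevalleyDatum
open Cfsg.Agent.ChevalleyStructure Cfsg.Agent.ChevalleyStructure.Elts Cfsg.Agent.H412.OT
open Cfsg.Agent.ChevalleyStructure.SL2Hom (up lo phi phi_upper phi_lower)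

universe u

variable {D : ChevalleyDatum} {K : Type u} [Field K]

/-- every root takes coprime values on two simple coroots -/
def gcdCheck (D : ChevalleyDatum) : Bool :=
  (List.range D.nroots).all fun r => (List.range D.rank).any fun i => (List.range D.rank).any fun j =>
    Nat.beq (Int.gcd (D.cartan i r) (D.cartan j r)) 1

theorem gcd_G2 : gcdCheck chevG2 = true := by decide +kernel
theorem gcd_D4 : gcdCheck chevD4 = true := by decide +kernel
theorem gcd_F4 : gcdCheck chevF4 = true := by decide +kernel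
theorem gcd_E6 : gcdCheck chevE6 = true := by decide +kernel
theorem gcd_E7 : gcdCheck chevE7 = true := by decide +kernel
theorem gcd_E8 : gcdCheck chevE8 = true := by decide +kernel

theorem exists_gcd (hm : D ∈ [chevG2, chevD4, chevF4, chevE6, chevE7, chevE8]) {r : ℕ} (hr : r < D.nroots) :
    ∃ i < D.rank, ∃ j < D.rank, Int.gcd (D.cartan i r) (D.cartan j r) = 1 := by
  have h : gcdCheck D = true := by
    simp only [List.mem_cons, List.not_mem_nil, or_false] at hm
    rcases hm with h | h | h | h | h | h <;> rw [h]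
    · exact gcd_G2
    · exact gcd_D4
    · exact gcd_F4
    · exact gcd_E6
    · exact gcd_E7
    · exact gcd_E8
  unfold gcdCheck at h
  have h1 := List.all_eq_true.1 h r (List.mem_range.2 hr)
  obtain ⟨i, hi, h2⟩ := List.any_eq_true.1 h1
  obtain ⟨j, hj, h3⟩ := List.any_eq_true.1 h2
  exact ⟨i, List.mem_range.1 hi, j, List.mem_range.1 hj, Nat.eq_of_beq_eq_true h3⟩

/-- `chi t (-s) = (chi t s)⁻¹` -/
theorem chi_neg (hD : InList D) {t : GL D.Idx K} (ht : t ∈ D.diagonalSubgroup K) {s : ℕ} (hs : s < D.nroots) :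
    chi D K t (D.neg s) = (chi D K t s)⁻¹ := by
  obtain ⟨c, hc, e, h1⟩ := tor_data hD ht
  have h2 : ∀ s (hs : s < D.nroots), chi D K t s = ∏ i ∈ Finset.range D.rank, c i ^ D.cartan i s := by
    intro s hs
    rw [chi, dif_pos hs, e, Matrix.diagonal_apply_eq, Sum.elim_inr]
  rw [h2 _ (NPerm.neg_lt hD hs), h2 s hs, ← Finset.prod_inv_distrib]
  refine Finset.prod_congr rfl fun i _ => ?_
  rw [NBlock.cartan_neg hD i hs, zpow_neg]

section

variable (hD : InList D) {r : ℕ} (hr : r < D.nroots)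

/-- the rank one homomorphism of the root `r` -/
noncomputable def ph (K : Type u) [Field K] : Matrix.SpecialLinearGroup (Fin 2) K →* GL D.Idx K :=
  phi (SL2All.good_of_mem D hD r hr) K

theorem ph_up (t : K) : ph hD hr K (up t) = xG hD r t := Units.ext (phi_upper _ _ t rfl)

theorem ph_lo (t : K) : ph hD hr K (lo t) = xG hD (D.neg r) t := Units.ext (phi_lower _ _ t rfl)

theorem act_iff {t : GL D.Idx K} (ht : t ∈ D.diagonalSubgroup K) {c : Kˣ} (hc : chi D K t r = c) :
    Act (ph hD hr K) t c := by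
  constructor
  · intro u
    rw [ph_up, ph_up, tor_conj_xG hD ht hr, hc]
  · intro u
    rw [ph_lo, ph_lo, tor_conj_xG hD ht (NPerm.neg_lt hD hr), chi_neg hD ht hr, hc, Units.val_inv_eq_inv_val]

theorem ph_wd : ph hD hr K wd = nG hD r 1 := by
  have h : (wd : Matrix.SpecialLinearGroup (Fin 2) K) = up 1 * (lo (-1) * up 1) := by
    apply ext2
    · rw [mul2, mul2, mul2]
      show (0 : K) = 1 * (1 * 1 + 0 * 0) + 1 * (-1 * 1 + 1 * 0)
      ring
    · rw [mul2, mul2, mul2]
      show (1 : K) = 1 * (1 * 1 + 0 * 1) + 1 * (-1 * 1 + 1 * 1)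
      ring
    · rw [mul2, mul2, mul2]
      show (-1 : K) = 0 * (1 * 1 + 0 * 0) + 1 * (-1 * 1 + 1 * 0)
      ring
    · rw [mul2, mul2, mul2]
      show (0 : K) = 0 * (1 * 1 + 0 * 1) + 1 * (-1 * 1 + 1 * 1)
      ring
  rw [h, map_mul, map_mul, ph_up, ph_lo, nG_def, inv_one]

theorem ph_hd (c : Kˣ) : ph hD hr K (hd c) = hG hD r (c : K) := by
  have hc := c.ne_zero
  have h : (hd c : Matrix.SpecialLinearGroup (Fin 2) K) =
      (up (c : K) * (lo (-(c : K)⁻¹) * up (c : K))) * (up (-1) * (lo (-(-1)⁻¹) * up (-1))) := by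
    have e : (c : K) * (c : K)⁻¹ = 1 := mul_inv_cancel₀ hc
    have e1 : -(-1 : K)⁻¹ = 1 := by rw [inv_neg, inv_one, neg_neg]
    rw [e1]
    have h1 : up (c : K) * (lo (-(c : K)⁻¹) * up (c : K)) = mk2 0 (c : K) (-(c : K)⁻¹) 0 (by rw [mul_neg, sub_neg_eq_add, e]; ring) := by
      apply ext2
      · rw [mul2, mul2, mul2]
        show 1 * (1 * 1 + 0 * 0) + (c : K) * (-(c : K)⁻¹ * 1 + 1 * 0) = 0
        linear_combination -e
      · rw [mul2, mul2, mul2]
        show 1 * (1 * (c : K) + 0 * 1) + (c : K) * (-(c : K)⁻¹ * (c : K) + 1 * 1) = (c : K)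
        linear_combination -(c : K) * e
      · rw [mul2, mul2, mul2]
        show 0 * (1 * 1 + 0 * 0) + 1 * (-(c : K)⁻¹ * 1 + 1 * 0) = -(c : K)⁻¹
        ring
      · rw [mul2, mul2, mul2]
        show 0 * (1 * (c : K) + 0 * 1) + 1 * (-(c : K)⁻¹ * (c : K) + 1 * 1) = 0
        linear_combination -e
    have h2 : up (-1 : K) * (lo 1 * up (-1)) = mk2 0 (-1) 1 0 (by ring) := by
      apply ext2
      · rw [mul2, mul2, mul2]
        show 1 * (1 * 1 + 0 * 0) + (-1 : K) * (1 * 1 + 1 * 0) = 0
        ring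
      · rw [mul2, mul2, mul2]
        show 1 * (1 * (-1 : K) + 0 * 1) + (-1 : K) * (1 * (-1) + 1 * 1) = -1
        ring
      · rw [mul2, mul2, mul2]
        show (0 : K) * (1 * 1 + 0 * 0) + 1 * (1 * 1 + 1 * 0) = 1
        ring
      · rw [mul2, mul2, mul2]
        show (0 : K) * (1 * (-1) + 0 * 1) + 1 * (1 * (-1) + 1 * 1) = 0
        ring
    rw [h1, h2]
    apply ext2
    · rw [mul2]
      show (c : K) = 0 * 0 + (c : K) * 1
      ring
    · rw [mul2]
      show (0 : K) = 0 * -1 + (c : K) * 0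
      ring
    · rw [mul2]
      show (0 : K) = -(c : K)⁻¹ * 0 + 0 * 1
      ring
    · rw [mul2]
      show ((c⁻¹ : Kˣ) : K) = -(c : K)⁻¹ * -1 + 0 * 0
      rw [Units.val_inv_eq_inv_val]
      ring
  rw [h, map_mul, map_mul, map_mul, map_mul, map_mul, ph_up, ph_lo, ph_up, ph_lo, hG_def, nG_def, nG_def]

/-- `N` normalizes `T`. -/
theorem mon_le (hD : InList D) : D.monomialSubgroup K ≤ Subgroup.normalizer (D.diagonalSubgroup K : Set (GL D.Idx K)) := by
  have hn := MonomialNormal.normal hD (SharpSign.sharp (F := K) hD)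
  exact (Subgroup.normal_subgroupOf_iff_le_normalizer (diagonal_le_monomial D K)).1 hn

end

/-- **S2539, part 2.4.** The overgroups of `T` in `⟨T, X_r, X_{-r}⟩` containing neither `X_r` nor `X_{-r}`
normalize `T`. -/
theorem rank_one [Fintype K] (hm : D ∈ [chevG2, chevD4, chevF4, chevE6, chevE7, chevE8]) (hK : 6 ≤ Fintype.card K)
    {r : ℕ} (hr : r < D.nroots) {F : Subgroup (GL D.Idx K)} (hTF : D.diagonalSubgroup K ≤ F)
    (hF : F ≤ D.diagonalSubgroup K ⊔ (D.rootSubgroup K r ⊔ D.rootSubgroup K (D.neg r)))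
    (h1 : r ∉ SF D K F) (h2 : D.neg r ∉ SF D K F) :
    F ≤ Subgroup.normalizer (D.diagonalSubgroup K : Set (GL D.Idx K)) := by
  have hD : InList D := inList_of_mem hm
  have S : Setup (ph hD hr K) (D.diagonalSubgroup K) F :=
    { act := fun t ht => ⟨Units.mk0 _ (chi_ne_zero hD ht r), act_iff hD hr ht rfl⟩
      surj := by
        intro c
        obtain ⟨i, hi, j, hj, hg⟩ := exists_gcd hm hr
        have hb := Int.gcd_eq_gcd_ab (D.cartan i r) (D.cartan j r)
        rw [hg] at hb
        set a := Int.gcdA (D.cartan i r) (D.cartan j r)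
        set b := Int.gcdB (D.cartan i r) (D.cartan j r)
        have hc := c.ne_zero
        have hi' := NPerm.simple_lt hD hi
        have hj' := NPerm.simple_lt hD hj
        have hti := hG_mem (K := K) hD hi' (zpow_ne_zero a hc)
        have htj := hG_mem (K := K) hD hj' (zpow_ne_zero b hc)
        refine ⟨hG hD (D.simple i) ((c : K) ^ a) * hG hD (D.simple j) ((c : K) ^ b), mul_mem hti htj,
          act_iff hD hr (mul_mem hti htj) ?_⟩
        have hval : ∀ {i : ℕ} (hi : i < D.rank) {x : K} (hx : x ≠ 0), chi D K (hG hD (D.simple i) x) r = x ^ D.cartan i r := by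
          intro i hi x hx
          have e1 := hG_simple_conj hD hi hr hx (1 : K)
          rw [tor_conj_xG hD (hG_mem hD (NPerm.simple_lt hD hi) hx) hr, mul_one, mul_one] at e1
          exact xG_injective hD hr e1
        rw [chi_mul hD hti htj, hval hi (zpow_ne_zero a hc), hval hj (zpow_ne_zero b hc), ← zpow_mul, ← zpow_mul,
          ← zpow_add₀ hc]
        have e : a * D.cartan i r + b * D.cartan j r = 1 := by
          push_cast at hb
          linarith
        rw [e, zpow_one]
      hdm := fun c => by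
        rw [ph_hd]
        exact hG_mem hD hr c.ne_zero
      wdn := by
        rw [ph_wd]
        exact mon_le hD (nG_one_mem_monomial hD hr)
      le := hTF
      sub := by
        have e : (ph hD hr K).range = D.rootSubgroup K r ⊔ D.rootSubgroup K (D.neg r) := SL2Hom.range_phi _
        rw [e]
        exact hF
      nup := fun h => h1 ⟨hr, fun x hx => by
        obtain ⟨u, rfl⟩ := (mem_rootSubgroup_iff hD r x).1 hx
        rw [← ph_up hD hr]
        exact h u⟩
      nlo := fun h => h2 ⟨NPerm.neg_lt hD hr, fun x hx => by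
        obtain ⟨u, rfl⟩ := (mem_rootSubgroup_iff hD _ x).1 hx
        rw [← ph_lo hD hr]
        exact h u⟩ }
  exact S.le_normalizer hK

/-- the same with `GS` -/
theorem rank_one_GS {p : ℕ} [Fintype K] (h : Hyp K p D) {r : ℕ} (hr : r < D.nroots) {F : Subgroup (GL D.Idx K)}
    (hTF : D.diagonalSubgroup K ≤ F) (hF : F ≤ GS D K {r, D.neg r}) (h1 : r ∉ SF D K F) (h2 : D.neg r ∉ SF D K F) :
    F ≤ Subgroup.normalizer (D.diagonalSubgroup K : Set (GL D.Idx K)) := by
  refine rank_one h.mem ((by norm_num : 6 ≤ 13).trans h.card) hr hTF (hF.trans ?_) h1 h2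
  unfold GS
  refine sup_le_sup_left (iSup₂_le ?_) _
  rintro s (rfl | rfl)
  · exact le_sup_left
  · exact le_sup_right

end Cfsg.Agent.H194.OT
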