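import Cfsg.Agent.H186.OT.Iface
import Cfsg.Agent.H194.OT.RankOneChev

/-!
# S2539, part 2.4: the end of the rank one case
-/

set_option autoImplicit false

namespace Cfsg.Agent.H194.OT

open Cfsg Cfsg.Lie Cfsg.Lie.ChevalleyDatum
open Cfsg.Agent.H412.OT Cfsg.Agent.H186.OT

universe u

variable {D : ChevalleyDatum} {K : Type u} [Field K] {F : Subgroup (GL D.Idx K)}

theorem GS_mono {S S' : Set ℕ} (h : S ⊆ S') : GS D K S ≤ GS D K S' :=
  sup_le_sup_left (iSup₂_le fun r hr => le_iSup₂ (f := fun r (_ : r ∈ S') => D.rootSubgroup K r) r (h hr)) _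

/-- **S2539, part 2.4** : if no root subgroup lies in the minimal counterexample `F` and `F ≤ ⟨T, X_a : a ∈ Psi⟩`, then
`Psi` has at least two linearly independent roots. -/
theorem rank_one_false [Fintype K] {p : ℕ} (hy : Hyp K p D) (h : MinBad D K F) (he : SF D K F = ∅)
    (hC : F ≤ GS D K (Psi D K F)) {a : ℕ} (ha : a < D.nroots) (hP : Psi D K F ⊆ {a, D.neg a}) : False :=
  Cfsg.Agent.H186.OT.MinBad.not_le_norm h (rank_one_GS hy ha h.tor (hC.trans (GS_mono hP)) (by rw [he]; exact fun h => h)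
    (by rw [he]; exact fun h => h))

end Cfsg.Agent.H194.OT
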