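import Cfsg.Agent.H186.OT.Iface
import Cfsg.Agent.H194.OT.RankOneChev

/-!
# S2539: `T / Z(F)` is not cyclic
-/

set_option autoImplicit false

namespace Cfsg.Agent.H194.OT

open Subgroup Cfsg Cfsg.Lie Cfsg.Lie.ChevalleyDatum
open Cfsg.Agent.ChevalleyStructure Cfsg.Agent.ChevalleyStructure.Elts Cfsg.Agent.H412.OT Cfsg.Agent.H186.OT

universe u

/-! ### Tables -/

/-- all chain entries are short: the simply laced types -/
def slCheck (D : ChevalleyDatum) : Bool :=
  D.chain.toList.all fun R => R.toList.all fun e => e.2.toList.length.ble 1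

theorem sl_D4 : slCheck chevD4 = true := by decide +kernel
theorem sl_E6 : slCheck chevE6 = true := by decide +kernel
theorem sl_E7 : slCheck chevE7 = true := by decide +kernel
theorem sl_E8 : slCheck chevE8 = true := by decide +kernel

theorem length_le_one {D : ChevalleyDatum} (h : slCheck D = true) (r s : ℕ) : (D.chainEntry r s).length ≤ 1 := by
  rw [Columns.chainEntry_eq_look]
  have h1 : ∀ e ∈ Columns.row D r, e.2.toList.length ≤ 1 := by
    intro e he
    rw [Columns.row_def] at he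
    have h2 : D.chain.getD r #[] ∈ D.chain.toList ∨ D.chain.getD r #[] = #[] := by
      by_cases hr : r < D.chain.size
      · left
        rw [Array.getD_eq_getD_getElem?, Array.getElem?_eq_getElem hr, Option.getD_some]
        exact Array.mem_toList_iff.2 (Array.getElem_mem hr)
      · right
        rw [Array.getD_eq_getD_getElem?, Array.getElem?_eq_none (by omega), Option.getD_none]
    rcases h2 with h2 | h2
    · have h3 := List.all_eq_true.1 (List.all_eq_true.1 h _ h2) e he
      exact Nat.le_of_ble_eq_true h3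
    · rw [h2] at he
      simp at he
  generalize Columns.row D r = l at h1
  induction l with
  | nil => simp [Columns.look_nil]
  | cons e es ih =>
    rw [Columns.look_cons]
    split_ifs
    · exact h1 e (List.mem_cons_self)
    · exact ih fun e' he' => h1 e' (List.mem_cons_of_mem _ he')

/-- In the simply laced types `|⟨s, r^∨⟩| ≤ 1` for `s ≠ ± r`. -/
theorem pr_le_one {D : ChevalleyDatum} (hm : D ∈ [chevD4, chevE6, chevE7, chevE8]) {r s : ℕ} (hr : r < D.nroots)
    (hs : s < D.nroots) (h1 : s ≠ r) (h2 : s ≠ D.neg r) : |pr D r s| ≤ 1 := by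
  have hD : InList D := by
    simp only [List.mem_cons, List.not_mem_nil, or_false] at hm
    simp only [InList, List.mem_cons, List.not_mem_nil, or_false]
    tauto
  have h : slCheck D = true := by
    simp only [List.mem_cons, List.not_mem_nil, or_false] at hm
    rcases hm with h | h | h | h <;> rw [h]
    · exact sl_D4
    · exact sl_E6
    · exact sl_E7
    · exact sl_E8
  obtain ⟨q, S, E, k, hst, hk, hSk, hc⟩ := StringMem.hasStrings_of_mem hD hr s hs h1 h2
  have h3 := hst.up 0 (Nat.zero_le _)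
  have h4 := length_le_one h r (S 0)
  rw [h3, List.length_map, List.length_range, Nat.sub_zero] at h4
  have h5 : pr D r s = 2 * (k : ℤ) - (q : ℤ) := hc
  rw [h5, abs_le]
  constructor <;> omega

/-- the check of the pairs of roots in the small types -/
def smCheck (D : ChevalleyDatum) : Bool :=
  (List.range D.nroots).all fun a => (List.range D.nroots).all fun b =>
    (Nat.beq b a || Nat.beq b (D.neg a)) || (decide (pr D a b = 0) ||
      ((decide (|pr D a b| = 1) || decide (|pr D b a| = 1)) &&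
        (decide (1 ≤ 4 - pr D a b * pr D b a) && decide (4 - pr D a b * pr D b a ≤ 5))))

theorem sm_G2 : smCheck chevG2 = true := by decide +kernel
theorem sm_F4 : smCheck chevF4 = true := by decide +kernel

/-- The pairs of roots. -/
theorem pair_bd {D : ChevalleyDatum} (hm : D ∈ [chevG2, chevD4, chevF4, chevE6, chevE7, chevE8]) {a b : ℕ}
    (ha : a < D.nroots) (hb : b < D.nroots) (h1 : b ≠ a) (h2 : b ≠ D.neg a) (h3 : pr D a b ≠ 0) :
    (|pr D a b| = 1 ∨ |pr D b a| = 1) ∧ 1 ≤ 4 - pr D a b * pr D b a ∧ 4 - pr D a b * pr D b a ≤ 5 := by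
  by_cases hs : D ∈ [chevD4, chevE6, chevE7, chevE8]
  · have hD : InList D := inList_of_mem hm
    have h4 := pr_le_one hs ha hb h1 h2
    have h2' : a ≠ D.neg b := by
      intro h
      apply h2
      rw [h, (StringMem.rootOK_of_mem hD hb).neg_neg]
    have h5 := pr_le_one hs hb ha h1.symm h2'
    generalize pr D a b = x at *
    generalize pr D b a = y at *
    rw [abs_le] at h4 h5
    have hx : x = 1 ∨ x = -1 := by omega
    have hy : y = 1 ∨ y = -1 ∨ y = 0 := by omega
    rcases hx with rfl | rfl <;> rcases hy with rfl | rfl | rfl <;> norm_num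
  · have h : smCheck D = true := by
      simp only [List.mem_cons, List.not_mem_nil, or_false] at hm hs
      push Not at hs
      rcases hm with h | h | h | h | h | h
      · rw [h]; exact sm_G2
      · exact absurd h hs.1
      · rw [h]; exact sm_F4
      · exact absurd h hs.2.1
      · exact absurd h hs.2.2.1
      · exact absurd h hs.2.2.2
    have h4 := List.all_eq_true.1 (List.all_eq_true.1 h a (List.mem_range.2 ha)) b (List.mem_range.2 hb)
    simp only [Bool.or_eq_true, Bool.and_eq_true, decide_eq_true_eq, Nat.beq_eq] at h4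
    rcases h4 with (h4 | h4) | h4 | h4
    · exact absurd h4 h1
    · exact absurd h4 h2
    · exact absurd h4 h3
    · exact h4

/-! ### Elements of the torus -/

variable {D : ChevalleyDatum} {K : Type u} [Field K]

theorem tor_ext (hD : InList D) {t t' : GL D.Idx K} (ht : t ∈ D.diagonalSubgroup K)
    (ht' : t' ∈ D.diagonalSubgroup K) (h : ∀ s < D.nroots, chi D K t s = chi D K t' s) : t = t' := by
  apply Units.ext
  rw [coe_tor hD ht, coe_tor hD ht']
  congr 1
  funext x
  rcases x with i | s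
  · rfl
  · rw [Sum.elim_inr, Sum.elim_inr]
    exact h s s.2

theorem tor_comm (hD : InList D) {t t' : GL D.Idx K} (ht : t ∈ D.diagonalSubgroup K)
    (ht' : t' ∈ D.diagonalSubgroup K) : t * t' = t' * t :=
  tor_ext hD (mul_mem ht ht') (mul_mem ht' ht) fun s _ => by rw [chi_mul hD ht ht', chi_mul hD ht' ht, mul_comm]

theorem hG_mul (hD : InList D) {r : ℕ} (hr : r < D.nroots) {c c' : K} (hc : c ≠ 0) (hc' : c' ≠ 0) :
    hG hD r (c * c') = hG hD r c * hG hD r c' :=
  tor_ext hD (hG_mem hD hr (mul_ne_zero hc hc')) (mul_mem (hG_mem hD hr hc) (hG_mem hD hr hc')) fun s hs => by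
    rw [chi_mul hD (hG_mem hD hr hc) (hG_mem hD hr hc'), chi_hG hD hr hs (mul_ne_zero hc hc'), chi_hG hD hr hs hc,
      chi_hG hD hr hs hc', mul_zpow]

theorem chi_pow (hD : InList D) {t : GL D.Idx K} (ht : t ∈ D.diagonalSubgroup K) (s n : ℕ) :
    chi D K (t ^ n) s = chi D K t s ^ n := by
  induction n with
  | zero => rw [pow_zero, pow_zero, chi_one]
  | succ n ih => rw [pow_succ, pow_succ, chi_mul hD (pow_mem ht n) ht, ih]

theorem tor_pow (hD : InList D) [Fintype K] {t : GL D.Idx K} (ht : t ∈ D.diagonalSubgroup K) :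
    t ^ (Fintype.card K - 1) = 1 :=
  tor_ext hD (pow_mem ht _) (one_mem _) fun s _ => by
    rw [chi_pow hD ht, chi_one, FiniteField.pow_card_sub_one_eq_one _ (chi_ne_zero hD ht s)]

theorem pr_self (hD : InList D) {r : ℕ} (hr : r < D.nroots) : pr D r r = 2 :=
  (StringMem.rootOK_of_mem hD hr).cartan_self

/-- The kernel of `(c, d) ↦ (c ^ 2 * d ^ x, c ^ y * d ^ 2)`. -/
theorem card_ker_le [Fintype K] {x y : ℤ} (h : (|y| = 1 ∨ |x| = 1) ∧ 1 ≤ 4 - y * x ∧ 4 - y * x ≤ 5)
    (S : Subgroup (Kˣ × Kˣ)) (hS : ∀ u ∈ S, u.1 ^ (2 : ℤ) * u.2 ^ x = 1 ∧ u.1 ^ y * u.2 ^ (2 : ℤ) = 1) :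
    Nat.card S ≤ 5 := by
  classical
  obtain ⟨h1, h2, h3⟩ := h
  obtain ⟨n, hn⟩ := Int.eq_ofNat_of_zero_le (show 0 ≤ 4 - y * x by omega)
  have hn1 : 1 ≤ n := by omega
  have hn5 : n ≤ 5 := by omega
  have hcard : Nat.card {c : Kˣ // c ^ n = 1} ≤ n := by
    rw [Nat.card_eq_fintype_card, Fintype.card_subtype]
    exact IsCyclic.card_pow_eq_one_le (by omega)
  have k1 : ∀ u ∈ S, u.1 ^ n = 1 := by
    intro u hu
    obtain ⟨e1, e2⟩ := hS u hu
    have e3 : u.1 ^ (4 - y * x) = (u.1 ^ (2 : ℤ) * u.2 ^ x) ^ (2 : ℤ) * ((u.1 ^ y * u.2 ^ (2 : ℤ)) ^ x)⁻¹ := by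
      rw [mul_zpow, mul_zpow, ← zpow_mul, ← zpow_mul, ← zpow_mul, ← zpow_mul, mul_inv, zpow_sub, mul_comm x 2]
      have : (2 : ℤ) * 2 = 4 := by norm_num
      rw [this]
      have a1 := mul_inv_cancel (u.2 ^ (2 * x))
      calc u.1 ^ (4 : ℤ) * (u.1 ^ (y * x))⁻¹
          = u.1 ^ (4 : ℤ) * (u.1 ^ (y * x))⁻¹ * (u.2 ^ (2 * x) * (u.2 ^ (2 * x))⁻¹) := by rw [a1, mul_one]
        _ = _ := by
            generalize u.1 ^ (4 : ℤ) = A, (u.1 ^ (y * x))⁻¹ = B, u.2 ^ (2 * x) = C
            generalize C⁻¹ = E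
            calc A * B * (C * E) = A * (B * C) * E := by simp only [mul_assoc]
              _ = A * (C * B) * E := by rw [mul_comm B C]
              _ = A * C * (B * E) := by simp only [mul_assoc]
    rw [e1, e2, one_zpow, one_zpow, inv_one, mul_one, hn] at e3
    exact_mod_cast e3
  have k2 : ∀ u ∈ S, u.2 ^ n = 1 := by
    intro u hu
    obtain ⟨e1, e2⟩ := hS u hu
    have e3 : u.2 ^ (4 - y * x) = (u.1 ^ y * u.2 ^ (2 : ℤ)) ^ (2 : ℤ) * ((u.1 ^ (2 : ℤ) * u.2 ^ x) ^ y)⁻¹ := by
      rw [mul_zpow, mul_zpow, ← zpow_mul, ← zpow_mul, ← zpow_mul, ← zpow_mul, mul_inv, zpow_sub, mul_comm y 2,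
        mul_comm x y]
      have : (2 : ℤ) * 2 = 4 := by norm_num
      rw [this]
      have a1 := mul_inv_cancel (u.1 ^ (2 * y))
      calc u.2 ^ (4 : ℤ) * (u.2 ^ (y * x))⁻¹
          = (u.1 ^ (2 * y) * (u.1 ^ (2 * y))⁻¹) * (u.2 ^ (4 : ℤ) * (u.2 ^ (y * x))⁻¹) := by rw [a1, one_mul]
        _ = _ := by
            generalize u.2 ^ (4 : ℤ) = A, (u.2 ^ (y * x))⁻¹ = B, u.1 ^ (2 * y) = C
            generalize C⁻¹ = E
            calc C * E * (A * B) = C * (E * A) * B := by simp only [mul_assoc]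
              _ = C * (A * E) * B := by rw [mul_comm E A]
              _ = C * A * (E * B) := by simp only [mul_assoc]
    rw [e1, e2, one_zpow, one_zpow, inv_one, mul_one, hn] at e3
    exact_mod_cast e3
  have key : ∀ (z : ℤ), |z| = 1 → ∀ v w : Kˣ, v ^ z = w ^ z → v = w := by
    intro z hz v w hvw
    rcases (abs_eq (by norm_num)).1 hz with rfl | rfl
    · rwa [zpow_one, zpow_one] at hvw
    · rwa [zpow_neg, zpow_neg, zpow_one, zpow_one, inv_inj] at hvw
  refine le_trans ?_ hn5
  refine le_trans ?_ hcard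
  rcases h1 with h1 | h1
  · -- the second coordinate determines the first
    refine Nat.card_le_card_of_injective (fun u : S => (⟨u.1.2, k2 u u.2⟩ : {c : Kˣ // c ^ n = 1})) ?_
    rintro ⟨u, hu⟩ ⟨v, hv⟩ huv
    have e : u.2 = v.2 := congrArg Subtype.val huv
    have e1 := (hS u hu).2
    have e2 := (hS v hv).2
    rw [← e, ← e1] at e2
    exact Subtype.ext (Prod.ext (key y h1 _ _ (mul_right_cancel e2).symm) e)
  · refine Nat.card_le_card_of_injective (fun u : S => (⟨u.1.1, k1 u u.2⟩ : {c : Kˣ // c ^ n = 1})) ?_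
    rintro ⟨u, hu⟩ ⟨v, hv⟩ huv
    have e : u.1 = v.1 := congrArg Subtype.val huv
    have e1 := (hS u hu).1
    have e2 := (hS v hv).1
    rw [← e, ← e1] at e2
    exact Subtype.ext (Prod.ext e (key x h1 _ _ (mul_left_cancel e2).symm))

variable {F : Subgroup (GL D.Idx K)}

/-- **`T / Z(F)` is not cyclic** if `Psi` contains two roots that are neither proportional nor orthogonal. -/
theorem noncyc {p : ℕ} [Fintype K] (hy : Hyp K p D) (hTF : D.diagonalSubgroup K ≤ F) {a b : ℕ}
    (ha : a ∈ Psi D K F) (hb : b ∈ Psi D K F) (hba : b ≠ a) (hbn : b ≠ D.neg a) (hab : pr D a b ≠ 0) :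
    ¬ IsCyclic (((D.diagonalSubgroup K).subgroupOf F).map (QuotientGroup.mk' (center F))) := by
  classical
  intro hcyc
  have hD := hy.inList
  have hFin : Finite F := inferInstance
  set T' : Subgroup (F ⧸ center F) := ((D.diagonalSubgroup K).subgroupOf F).map (QuotientGroup.mk' (center F)) with hT'
  -- the order of `T / Z`
  have hcard : Nat.card T' ≤ Fintype.card K - 1 := by
    rw [← IsCyclic.exponent_eq_card]
    apply Nat.le_of_dvd
    · have := hy.card
      omega
    · apply Monoid.exponent_dvd_of_forall_pow_eq_one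
      rintro ⟨_, t, ht, rfl⟩
      apply Subtype.ext
      rw [coe_pow, coe_one, ← map_pow]
      have h1 : t ^ (Fintype.card K - 1) = 1 := Subtype.ext (tor_pow hD (mem_subgroupOf.1 ht))
      rw [h1, map_one]
  have hm : ∀ u : Kˣ × Kˣ, hG hD a (u.1 : K) * hG hD b (u.2 : K) ∈ D.diagonalSubgroup K := fun u =>
    mul_mem (hG_mem hD ha.1 u.1.ne_zero) (hG_mem hD hb.1 u.2.ne_zero)
  let φ : Kˣ × Kˣ →* F ⧸ center F := (QuotientGroup.mk' (center F)).comp
    { toFun := fun u => ⟨hG hD a (u.1 : K) * hG hD b (u.2 : K), hTF (hm u)⟩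
      map_one' := by
        apply Subtype.ext
        rw [coe_one]
        apply tor_ext hD (hm 1) (one_mem _)
        intro s hs
        rw [chi_mul hD (hG_mem hD ha.1 (1 : Kˣ × Kˣ).1.ne_zero) (hG_mem hD hb.1 (1 : Kˣ × Kˣ).2.ne_zero),
          chi_hG hD ha.1 hs (1 : Kˣ × Kˣ).1.ne_zero, chi_hG hD hb.1 hs (1 : Kˣ × Kˣ).2.ne_zero, chi_one]
        simp
      map_mul' := by
        intro u v
        apply Subtype.ext
        show hG hD a ((u.1 * v.1 : Kˣ) : K) * hG hD b ((u.2 * v.2 : Kˣ) : K) =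
          hG hD a (u.1 : K) * hG hD b (u.2 : K) * (hG hD a (v.1 : K) * hG hD b (v.2 : K))
        rw [Units.val_mul, Units.val_mul, hG_mul hD ha.1 u.1.ne_zero v.1.ne_zero,
          hG_mul hD hb.1 u.2.ne_zero v.2.ne_zero]
        have := tor_comm hD (hG_mem hD hb.1 u.2.ne_zero) (hG_mem hD ha.1 v.1.ne_zero)
        calc _ = hG hD a (u.1 : K) * (hG hD a (v.1 : K) * hG hD b (u.2 : K)) * hG hD b (v.2 : K) := by
              simp only [mul_assoc]
          _ = _ := by rw [← this]; simp only [mul_assoc] }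
  have hφ : ∀ u, φ u = QuotientGroup.mk' (center F) ⟨hG hD a (u.1 : K) * hG hD b (u.2 : K), hTF (hm u)⟩ :=
    fun u => rfl
  have hrange : φ.range ≤ T' := by
    rintro _ ⟨u, rfl⟩
    rw [hφ]
    exact mem_map_of_mem _ (mem_subgroupOf.2 (hm u))
  have hr : Nat.card φ.range ≤ Fintype.card K - 1 := (card_le_of_le hrange).trans hcard
  have hk : Nat.card φ.ker ≤ 5 := by
    refine card_ker_le (x := pr D b a) (y := pr D a b) (pair_bd hy.mem ha.1 hb.1 hba hbn hab) _ ?_
    intro u hu
    rw [MonoidHom.mem_ker, hφ, QuotientGroup.mk'_apply, QuotientGroup.eq_one_iff, ← coe_mem_Zf] at hu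
    have h1 := ha.2 _ hu
    have h2 := hb.2 _ hu
    rw [chi_mul hD (hG_mem hD ha.1 u.1.ne_zero) (hG_mem hD hb.1 u.2.ne_zero),
      chi_hG hD ha.1 ha.1 u.1.ne_zero, chi_hG hD hb.1 ha.1 u.2.ne_zero, pr_self hD ha.1] at h1
    rw [chi_mul hD (hG_mem hD ha.1 u.1.ne_zero) (hG_mem hD hb.1 u.2.ne_zero),
      chi_hG hD ha.1 hb.1 u.1.ne_zero, chi_hG hD hb.1 hb.1 u.2.ne_zero, pr_self hD hb.1] at h2
    constructor
    · apply Units.ext
      rw [Units.val_mul, Units.val_zpow_eq_zpow_val, Units.val_zpow_eq_zpow_val, Units.val_one]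
      exact h1
    · apply Units.ext
      rw [Units.val_mul, Units.val_zpow_eq_zpow_val, Units.val_zpow_eq_zpow_val, Units.val_one]
      exact h2
  have hprod : Nat.card (Kˣ × Kˣ) = Nat.card φ.ker * Nat.card φ.range := by
    have h1 := Subgroup.card_eq_card_quotient_mul_card_subgroup φ.ker
    rw [h1, mul_comm, Nat.card_congr (QuotientGroup.quotientKerEquivRange φ).toEquiv]
  rw [Nat.card_prod, Nat.card_units, Nat.card_eq_fintype_card] at hprod
  have h13 := hy.card
  have h1 : Nat.card φ.ker * Nat.card φ.range ≤ 5 * (Fintype.card K - 1) := Nat.mul_le_mul hk hr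
  rw [← hprod] at h1
  have h2 : Fintype.card K - 1 ≤ 5 := Nat.le_of_mul_le_mul_right h1 (by omega)
  omega

end Cfsg.Agent.H194.OT
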